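import Cfsg.Agent.Lib.FPD.SG

/-!
Glauberman's lemma for a fixed-point-free nilpotent group `B` of automorphisms of a group `G` all
of whose proper `B`-invariant subgroups are solvable: every supplement of `G` in `G B` contains a
conjugate of `B`.
-/

set_option autoImplicit false

namespace CfsgLib.FPD

open Subgroup CfsgLib.Coprime CfsgLib.Solv CfsgLib.KMS Cfsg
open scoped Pointwise

universe u v w

variable {Γ : Type u} [Group Γ]

/-- The minimal situation, ambient form. -/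
structure Amb (G B : Subgroup Γ) : Prop where
  sup : G ⊔ B = ⊤
  nil : Group.IsNilpotent B
  fpf : G ⊓ centralizer (B : Set Γ) = ⊥
  ctr : G ⊓ centralizer (G : Set Γ) = ⊥
  core : ∀ (p : ℕ) (U : Subgroup Γ), p.Prime → U ≤ G → IsPGroup p U →
    G ≤ normalizer (U : Set Γ) → U = ⊥
  faith : B ⊓ centralizer (G : Set Γ) = ⊥
  ne : B ≠ ⊥
  sol : ∀ H : Subgroup Γ, H < G → B ≤ normalizer (H : Set Γ) → Group.IsSolvable H

theorem conj_smul_eq_iff' {g : Γ} {U : Subgroup Γ} :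
    MulAut.conj g • U = U ↔ g ∈ normalizer (U : Set Γ) :=
  mem_normalizer_iff_map_conj_eq.symm

variable [Finite Γ] {G B : Subgroup Γ} [G.Normal]

theorem Amb.fr (h : Amb G B) {r : ℕ} [Fact r.Prime] {L : Subgroup Γ} (hL : G ⊔ L = ⊤)
    (P : Sylow r L) :
    G ⊔ (L ⊓ normalizer (((P : Subgroup L).map L.subtype : Subgroup Γ) : Set Γ)) = ⊤ ∧
      ∀ a : Γ, IsPGroup r (zpowers a) → a ∈ G ⊔ (P : Subgroup L).map L.subtype := by
  have hsur : ∀ K : Subgroup Γ, G ⊔ K = ⊤ →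
      Function.Surjective ((QuotientGroup.mk' G).comp K.subtype) := fun K hK y => by
    obtain ⟨y, rfl⟩ := QuotientGroup.mk_surjective y
    obtain ⟨g, hg, k, hk, rfl⟩ := mem_sup_of_normal_left.1 (hK.ge (mem_top y))
    exact ⟨⟨k, hk⟩, by simp [(QuotientGroup.eq_one_iff g).2 hg]⟩
  have := h.nil
  have : Group.IsNilpotent (Γ ⧸ G) := Group.nilpotent_of_surjective _ (hsur B h.sup)
  let f := (QuotientGroup.mk' G).comp L.subtype
  let Pb := P.mapSurjective (hsur L hL)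
  have hW : ∀ l : L, f l ∈ (Pb : Subgroup (Γ ⧸ G)) →
      (l : Γ) ∈ G ⊔ (P : Subgroup L).map L.subtype := by
    rintro l ⟨y, hy, e⟩
    have : (y : Γ)⁻¹ * l ∈ G := QuotientGroup.eq.1 e
    rw [show (l : Γ) = y * ((y : Γ)⁻¹ * l) by group]
    exact mul_mem (mem_sup_right ⟨y, hy, rfl⟩) (mem_sup_left this)
  constructor
  · have h1 := Sylow.normalizer_sup_eq_top' (N := (Pb : Subgroup (Γ ⧸ G)).comap f) P
      (le_comap_map f _)
    rw [eq_top_iff, ← hL]
    refine sup_le le_sup_left fun l hl => ?_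
    obtain ⟨n, hn, w, hw, e⟩ := mem_sup_of_normal_right.1 (h1.ge (mem_top (⟨l, hl⟩ : L)))
    rw [show l = n * w from (congrArg Subtype.val e).symm]
    refine mul_mem (mem_sup_right ⟨n.2, le_normalizer_map L.subtype ⟨n, hn, rfl⟩⟩) ?_
    exact sup_le_sup_left (le_inf (map_subtype_le _) le_normalizer) G (hW w hw)
  · intro a ha
    obtain ⟨g, hg, l, hl, rfl⟩ := mem_sup_of_normal_left.1 (hL.ge (mem_top a))
    refine mul_mem (mem_sup_left hg) (hW ⟨l, hl⟩ ?_)
    have h1 := ha.map (QuotientGroup.mk' G)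
    obtain ⟨Q, hQ⟩ := h1.exists_le_sylow
    have : Unique (Sylow r (Γ ⧸ G)) := Sylow.unique_of_normal Pb inferInstance
    rw [Subsingleton.elim Pb Q]
    refine hQ ⟨g * l, mem_zpowers _, ?_⟩
    simp [f, (QuotientGroup.eq_one_iff g).2 hg]

theorem Amb.fin (h : Amb G B) {r : ℕ} (hr : r.Prime) {a : Γ} (haB : a ∈ B) (ha1 : a ≠ 1)
    (haZ : ∀ b ∈ B, b * a = a * b) {U : Subgroup Γ} (hU : IsPGroup r U) (haU : a ∈ G ⊔ U)
    (hBU : B ≤ normalizer (U : Set Γ)) {X : Type w} [MulAction Γ X] (x : X)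
    (hx : G ⊔ (MulAction.stabilizer Γ x ⊓ normalizer (U : Set Γ)) = ⊤) :
    ∃ k ∈ G ⊓ normalizer (U : Set Γ), ∀ b ∈ B, b • k • x = k • x := by
  have hGn : G.Normal := inferInstance
  have hBH : B ≤ normalizer ((G ⊓ normalizer (U : Set Γ) : Subgroup Γ) : Set Γ) :=
    le_normalizer_inf le_normalizer_of_normal (le_normalizer_normalizer hBU)
  have hlt : G ⊓ normalizer (U : Set Γ) < G := by
    refine lt_of_le_of_ne inf_le_left fun e => ?_
    have hGU : G ≤ normalizer (U : Set Γ) := inf_eq_left.1 e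
    have h1 : G ⊓ U = ⊥ := h.core r _ hr inf_le_left (hU.to_inf_right)
      (le_normalizer_inf le_normalizer hGU)
    have h2 : ∀ u ∈ U, ∀ y ∈ G, u * y * u⁻¹ = y := fun u hu y hy => by
      have : u * y * u⁻¹ * y⁻¹ ∈ G ⊓ U := ⟨G.mul_mem (hGn.conj_mem y hy u) (G.inv_mem hy), by
        rw [mul_assoc, mul_assoc, ← mul_assoc y]
        exact U.mul_mem hu (conj_mem_of_le_normalizer hGU hy (U.inv_mem hu))⟩
      rw [h1, mem_bot] at this
      exact mul_inv_eq_one.1 this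
    obtain ⟨g, hg, u, hu, e⟩ := mem_sup_of_normal_left.1 haU
    have h3 : ∀ y ∈ G, a * y * a⁻¹ = g * y * g⁻¹ := fun y hy => by
      rw [← e]
      conv_rhs => rw [← h2 u hu y hy]
      group
    have h4 : g ∈ G ⊓ centralizer (B : Set Γ) := ⟨hg, mem_centralizer_iff.2 fun b hb => by
      have : g⁻¹ * (b * g * b⁻¹) ∈ G ⊓ centralizer (G : Set Γ) :=
        ⟨G.mul_mem (G.inv_mem hg) (hGn.conj_mem g hg b), mem_centralizer_iff.2 fun y hy => by
          have e1 := h3 _ (hGn.conj_mem y hy b⁻¹)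
          have e2 := h3 y hy
          have e3 : a * (b⁻¹ * y * b⁻¹⁻¹) * a⁻¹ = b⁻¹ * (a * y * a⁻¹) * b := by
            have e4 : a * b⁻¹ = b⁻¹ * a := (haZ _ (B.inv_mem hb)).symm
            have e5 : b * a⁻¹ = a⁻¹ * b := by
              rw [← inv_inj]; simpa using e4
            calc _ = (a * b⁻¹) * y * (b * a⁻¹) := by group
              _ = _ := by rw [e4, e5]; group
          rw [e3, e2] at e1
          calc y * (g⁻¹ * (b * g * b⁻¹)) = g⁻¹ * b * (b⁻¹ * (g * y * g⁻¹) * b) * g * b⁻¹ := by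
                group
            _ = _ := by rw [e1]; group⟩
      rw [h.ctr, mem_bot] at this
      exact mul_inv_eq_iff_eq_mul.1 (inv_mul_eq_one.1 this).symm⟩
    rw [h.fpf, mem_bot] at h4
    have h5 : a ∈ B ⊓ centralizer (G : Set Γ) := ⟨haB, mem_centralizer_iff.2 fun y hy => by
      have := h3 y hy
      rw [h4, one_mul, inv_one, mul_one] at this
      exact (mul_inv_eq_iff_eq_mul.1 this).symm⟩
    rw [h.faith, mem_bot] at h5
    exact ha1 h5
  refine sg_amb h.nil hBH (h.sol _ hlt hBH)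
    (eq_bot_iff.2 ((inf_le_inf_right _ inf_le_left).trans h.fpf.le)) x fun b hb => ?_
  obtain ⟨g, hg, l, hl, e⟩ := mem_sup_of_normal_left.1 (hx.ge (mem_top b))
  refine ⟨g, ⟨hg, ?_⟩, ?_⟩
  · rw [show g = b * l⁻¹ by rw [← e]; group]
    exact (normalizer (U : Set Γ)).mul_mem (hBU hb) ((normalizer (U : Set Γ)).inv_mem hl.2)
  · rw [← e, mul_smul, (hl.1 : l • x = x)]

omit [G.Normal] in
theorem exists_sylow_eq {r : ℕ} [Fact r.Prime] {U : Subgroup Γ} (hU : IsPGroup r U)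
    (h : ∀ P : Sylow r (normalizer (U : Set Γ)), Nat.card P ≤ Nat.card U) :
    ∃ R : Sylow r Γ, (R : Subgroup Γ) = U := by
  obtain ⟨R, hR⟩ := hU.exists_le_sylow
  refine ⟨R, ?_⟩
  by_contra hne
  have h1 := Core.lt_inf_normalizer_of_isPGroup R.isPGroup' (lt_of_le_of_ne hR (Ne.symm hne))
  obtain ⟨P, hP⟩ := ((R.isPGroup'.to_inf_left (K := normalizer (U : Set Γ))).comap_subtype
    (K := normalizer (U : Set Γ))).exists_le_sylow
  have h2 := card_le_of_le hP
  rw [← subgroupOf, Nat.card_congr (subgroupOfEquivOfLe inf_le_right).toEquiv] at h2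
  exact h1.ne (eq_of_le_of_card_ge h1.le (h2.trans (h P)))

theorem Amb.top (h : Amb G B) {r : ℕ} [Fact r.Prime] {a : Γ} (haB : a ∈ B) (ha1 : a ≠ 1)
    (haZ : ∀ b ∈ B, b * a = a * b) (har : IsPGroup r (zpowers a)) :
    ∃ R : Sylow r Γ, B ≤ normalizer ((R : Subgroup Γ) : Set Γ) := by
  obtain ⟨U, ⟨hU, haU, hBU⟩, hmax⟩ := Set.exists_max_image
    {U : Subgroup Γ | IsPGroup r U ∧ a ∈ U ∧ B ≤ normalizer (U : Set Γ)}
    (fun U => Nat.card U) (Set.toFinite _) ⟨zpowers a, har, mem_zpowers a, fun b hb =>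
      centralizer_le_normalizer _ (mem_centralizer_iff.2 fun y hy => by
        obtain ⟨k, rfl⟩ := hy
        exact (Commute.zpow_left (haZ b hb).symm k).eq)⟩
  obtain ⟨R, hR⟩ := exists_sylow_eq hU fun P => by
    let _ : MulAction Γ (Subgroup Γ) := MulAction.compHom _ (MulAut.conj (G := Γ))
    have hL : G ⊔ normalizer (U : Set Γ) = ⊤ := eq_top_iff.2 (h.sup.ge.trans (sup_le_sup_left hBU G))
    set U₁ := (P : Subgroup (normalizer (U : Set Γ))).map (normalizer (U : Set Γ)).subtype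
    have hst : MulAction.stabilizer Γ U₁ = normalizer (U₁ : Set Γ) :=
      Subgroup.ext fun g => conj_smul_eq_iff'
    obtain ⟨k, hk, hfix⟩ := h.fin Fact.out haB ha1 haZ hU (mem_sup_right haU) hBU U₁
      (by rw [hst, inf_comm]; exact (h.fr hL P).1)
    have hUn : (U.comap (normalizer (U : Set Γ)).subtype).Normal := normal_in_normalizer
    have hUU : U ≤ U₁ := fun u hu => ⟨⟨u, le_normalizer hu⟩,
      (hU.comap_subtype (K := normalizer (U : Set Γ))).le_sylow_of_normal P hu, rfl⟩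
    have h1 := hmax (MulAut.conj k • U₁) ⟨(P.isPGroup'.map _).map _, by
      have := (conj_smul_eq_iff'.2 hk.2).ge haU
      exact pointwise_smul_le_pointwise_smul_iff.2 hUU this,
      fun b hb => conj_smul_eq_iff'.1 (hfix b hb)⟩
    have h2 : Nat.card (MulAut.conj k • U₁ : Subgroup Γ) = Nat.card P :=
      (card_map_of_injective (f := (MulAut.conj k).toMonoidHom) (MulAut.conj k).injective).trans
        (card_map_of_injective (normalizer (U : Set Γ)).subtype_injective)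
    exact h2 ▸ h1
  exact ⟨R, hR ▸ hBU⟩

theorem Amb.gl_aux (h : Amb G B) {r : ℕ} [Fact r.Prime] {a : Γ} (haB : a ∈ B) (ha1 : a ≠ 1)
    (haZ : ∀ b ∈ B, b * a = a * b) (har : IsPGroup r (zpowers a)) (n : ℕ) :
    ∀ (L : Subgroup Γ) (P : Sylow r L), Nat.card Γ - Nat.card P = n → G ⊔ L = ⊤ →
      ∃ g ∈ G, ∀ b ∈ B, g⁻¹ * b * g ∈ L := by
  induction n using Nat.strong_induction_on with
  | _ n ih =>
  intro L P hn hL
  have hGn : G.Normal := inferInstance
  obtain ⟨f1, f2⟩ := h.fr hL P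
  set U := (P : Subgroup L).map L.subtype
  have hU : IsPGroup r U := P.isPGroup'.map _
  have hcU : Nat.card U = Nat.card P := card_map_of_injective L.subtype_injective
  have hN : G ⊔ normalizer (U : Set Γ) = ⊤ :=
    eq_top_iff.2 (f1.ge.trans (sup_le_sup_left inf_le_right G))
  obtain ⟨g, hg, hgB⟩ : ∃ g ∈ G, ∀ b ∈ B, g⁻¹ * b * g ∈ normalizer (U : Set Γ) := by
    by_cases hc : ∀ P₁ : Sylow r (normalizer (U : Set Γ)), Nat.card P₁ ≤ Nat.card U
    · obtain ⟨R, hR⟩ := exists_sylow_eq hU hc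
      obtain ⟨R', hR'⟩ := h.top haB ha1 haZ har
      obtain ⟨γ, rfl⟩ := MulAction.exists_smul_eq Γ R R'
      obtain ⟨g, hg, m, hm, rfl⟩ := mem_sup_of_normal_left.1 (hN.ge (mem_top γ))
      refine ⟨g, hg, fun b hb => ?_⟩
      rw [← hR] at hm ⊢
      have e := Sylow.smul_eq_iff_mem_normalizer.2 (hR' hb)
      rw [mul_smul, Sylow.smul_eq_iff_mem_normalizer.2 hm] at e
      refine Sylow.smul_eq_iff_mem_normalizer.1 ?_
      rw [mul_smul, mul_smul, e, inv_smul_smul]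
    · push Not at hc
      obtain ⟨P₁, hP₁⟩ := hc
      have h1 : Nat.card P₁ ≤ Nat.card Γ :=
        (card_le_card_group _).trans (card_le_card_group _)
      exact ih _ (by omega) _ P₁ rfl hN
  have hnm : ∀ y, g⁻¹ * y * g ∈ normalizer (U : Set Γ) →
      y ∈ normalizer ((MulAut.conj g • U : Subgroup Γ) : Set Γ) := fun y hy => by
    rw [← conj_smul_eq_iff'] at hy ⊢
    conv_rhs => rw [← hy]
    rw [← mul_smul, ← mul_smul, ← map_mul, ← map_mul]
    congr 2
    group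
  obtain ⟨k, hk, hfix⟩ := h.fin Fact.out haB ha1 haZ (U := MulAut.conj g • U) (hU.map _)
    (by
      obtain ⟨y, hy, u, hu, e⟩ := mem_sup_of_normal_left.1 (f2 a har)
      rw [← e, show y * u = (y * (u * g * u⁻¹) * g⁻¹) * (g * u * g⁻¹) by group]
      exact mul_mem (mem_sup_left (G.mul_mem (G.mul_mem hy (hGn.conj_mem g hg u)) (G.inv_mem hg)))
        (mem_sup_right ⟨u, hu, rfl⟩))
    (fun b hb => hnm b (hgB b hb)) (X := Γ ⧸ L) (g : Γ ⧸ L) (by
      refine eq_top_iff.2 fun γ _ => ?_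
      obtain ⟨y, hy, l, hl, e⟩ := mem_sup_of_normal_left.1 (f1.ge (mem_top (g⁻¹ * γ * g)))
      rw [show γ = (g * y * g⁻¹) * (g * l * g⁻¹) by
        rw [show γ = g * (g⁻¹ * γ * g) * g⁻¹ by group, ← e]; group]
      refine mul_mem (mem_sup_left (hGn.conj_mem y hy g)) (mem_sup_right ⟨?_, hnm _ ?_⟩)
      · change ((g * l * g⁻¹ * g : Γ) : Γ ⧸ L) = (g : Γ ⧸ L)
        rw [QuotientGroup.eq]
        simpa using L.inv_mem hl.1
      · simpa [mul_assoc] using hl.2)
  refine ⟨k * g, G.mul_mem hk.1 hg, fun b hb => ?_⟩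
  have : ((k * g : Γ) : Γ ⧸ L) = ((b * (k * g) : Γ) : Γ ⧸ L) := (hfix b hb).symm
  simpa only [mul_assoc] using QuotientGroup.eq.1 this

/-- Every supplement of `G` contains a `G`-conjugate of `B`. -/
theorem Amb.gl (h : Amb G B) {L : Subgroup Γ} (hL : G ⊔ L = ⊤) :
    ∃ g ∈ G, ∀ b ∈ B, g⁻¹ * b * g ∈ L := by
  have := h.nil
  have := (nontrivial_iff_ne_bot B).2 h.ne
  have hZ : center B ≠ ⊥ := Group.IsNilpotent.center_ne_bot B
  obtain ⟨r, hr, hd⟩ := Nat.exists_prime_and_dvd (fun e => hZ (card_eq_one.1 e))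
  have := Fact.mk hr
  obtain ⟨z, hz⟩ := exists_prime_orderOf_dvd_card' r hd
  have ho : orderOf ((z : B) : Γ) = r := by rw [orderOf_coe, orderOf_coe, hz]
  refine h.gl_aux (r := r) (a := ((z : B) : Γ)) (z : B).2 (fun e => ?_)
    (fun b hb => congrArg Subtype.val (mem_center_iff.1 z.2 ⟨b, hb⟩))
    (IsPGroup.of_card (n := 1) (by rw [Nat.card_zpowers, ho, pow_one])) _ L default rfl hL
  rw [e, orderOf_one] at ho
  exact hr.ne_one ho.symm

/-- Glauberman's lemma in the minimal situation. -/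
theorem Amb.fixed (h : Amb G B) {X : Type w} [MulAction Γ X] (x : X)
    (hx : ∀ b ∈ B, ∃ g ∈ G, b • x = g • x) : ∃ g ∈ G, ∀ b ∈ B, b • g • x = g • x := by
  obtain ⟨g, hg, h1⟩ := h.gl (L := MulAction.stabilizer Γ x) (by
    rw [eq_top_iff, ← h.sup]
    refine sup_le le_sup_left fun b hb => ?_
    obtain ⟨g, hg, e⟩ := hx b hb
    rw [show b = g * (g⁻¹ * b) by group]
    refine mul_mem (mem_sup_left hg) (mem_sup_right ?_)
    change (g⁻¹ * b) • x = x
    rw [mul_smul, e, inv_smul_smul])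
  refine ⟨g, hg, fun b hb => ?_⟩
  have : (g⁻¹ * b * g) • x = x := h1 b hb
  rwa [mul_smul, mul_smul, inv_smul_eq_iff] at this

end CfsgLib.FPD
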