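import Cfsg.Agent.Lib.FPD.Bas

/-!
Glauberman's lemma for a fixed-point-free nilpotent group of automorphisms of a solvable group
(no coprimeness assumption).
-/

set_option autoImplicit false

namespace CfsgLib.FPD

open Subgroup CfsgLib.Coprime CfsgLib.Solv CfsgLib.KMS Cfsg

universe u v w

variable {A : Type v} [Group A]

theorem sg_aux [Finite A] (hA : Group.IsNilpotent A) (n : ℕ) :
    ∀ (G : Type u) [Group G] [Finite G] (φ : A →* MulAut G), Nat.card G = n →
      Group.IsSolvable G → fix φ ⊤ = ⊥ → ∀ (X : Type w) [MulAction G X] [MulAction A X],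
      (∀ (a : A) (g : G) (x : X), a • g • x = φ a g • a • x) → ∀ x : X,
      (∀ a : A, ∃ g : G, a • x = g • x) → ∃ g : G, ∀ a : A, a • g • x = g • x := by
  induction n using Nat.strong_induction_on with
  | _ n ih =>
  intro G _ _ φ hn hs h X _ _ hc x hx
  rcases subsingleton_or_nontrivial G with h1 | h1
  · refine ⟨1, fun a => ?_⟩
    obtain ⟨g, hg⟩ := hx a
    rw [one_smul, hg, Subsingleton.elim g 1, one_smul]
  obtain ⟨q, M, hq, hMn, hM, -, hM1, _, hexp⟩ := exists_inv_elem' (φ := φ) (K := ⊤) autInv_top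
    inferInstance top_ne_bot
  have hMq : IsPGroup q M := Core.isPGroup_of_forall_pow_eq_one hexp
  have hT : Group.IsNilpotent (⊤ : Subgroup A) := inferInstance
  let Y := Quotient (MulAction.orbitRel M X)
  have hrel : ∀ y z : X, (MulAction.orbitRel M X) y z ↔ ∃ m ∈ M, m • z = y := fun y z =>
    ⟨fun ⟨m, hm⟩ => ⟨m, m.2, hm⟩, fun ⟨m, hm, e⟩ => ⟨⟨m, hm⟩, e⟩⟩
  let _ : MulAction (G ⧸ M) Y :=
    { smul := Quotient.map₂ (fun g y => g • y) (by
        intro g g' hg y y' hy
        obtain ⟨m, hm, rfl⟩ := (hrel _ _).1 hy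
        have hg' : g⁻¹ * g' ∈ M := QuotientGroup.leftRel_apply.1 hg
        refine (hrel _ _).2 ⟨g * (m * (g⁻¹ * g')⁻¹) * g⁻¹,
          hMn.conj_mem _ (M.mul_mem hm (M.inv_mem hg')) g, ?_⟩
        simp only [← mul_smul]
        congr 1
        group)
      one_smul := fun y => Quotient.inductionOn y fun y => congrArg (Quotient.mk _) (one_smul G y)
      mul_smul := fun g g' y => Quotient.inductionOn₃ g g' y fun g g' y =>
        congrArg (Quotient.mk _) (mul_smul g g' y) }
  let _ : MulAction A Y :=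
    { smul := fun a => Quotient.map (fun y => a • y) (by
        intro y y' hy
        obtain ⟨m, hm, rfl⟩ := (hrel _ _).1 hy
        exact (hrel _ _).2 ⟨φ a m, hM a m hm, (hc a m y').symm⟩)
      one_smul := fun y => Quotient.inductionOn y fun y => congrArg (Quotient.mk _) (one_smul A y)
      mul_smul := fun a b y => Quotient.inductionOn y fun y =>
        congrArg (Quotient.mk _) (mul_smul a b y) }
  obtain ⟨g, hg⟩ := ih _ (hn ▸ card_quot_lt hM1) (G ⧸ M) (quotAut φ M hM) rfl inferInstance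
    (fix_quot hT h hM inferInstance) Y
    (fun a g y => Quotient.inductionOn₂ g y fun g y => congrArg (Quotient.mk _) (hc a g y))
    (Quotient.mk _ x) (fun a => by
      obtain ⟨g, hg⟩ := hx a
      exact ⟨(g : G ⧸ M), congrArg (Quotient.mk _) hg⟩)
  obtain ⟨g, rfl⟩ := QuotientGroup.mk_surjective g
  have hg' : ∀ a : A, ∃ m ∈ M, a • g • x = m • g • x := fun a => by
    obtain ⟨m, hm, e⟩ := (hrel _ _).1 (Quotient.exact (hg a))
    exact ⟨m, hm, e.symm⟩
  have := Fact.mk hq
  obtain ⟨E₁, E₂, -, hE₂, -, h2, h3, h4, hsp⟩ := exists_split (⊤ : Subgroup A) hT hq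
  have hb := fix_eq_bot_of_pgroup hq hMq h3 hsp (fix_sub_eq_bot h hM)
  have hc2 : ∀ (a : E₂) (g : G) (x : X), a • g • x = (φ.comp E₂.subtype) a g • a • x :=
    fun a g x => hc a g x
  have hcop := coprime_card_of_isPGroup hMq h4
  obtain ⟨k, hk, hfix⟩ := aut_exists_fixed_in_orbit hc2 (K := M) (fun a => hM a) hcop
    (Or.inr inferInstance) (g • x) (fun a => hg' a)
  refine ⟨k * g, fun a => ?_⟩
  rw [mul_smul]
  obtain ⟨m, hm, e⟩ := hg' a
  have e2 : a • k • g • x = (φ a k * m * k⁻¹) • k • g • x := by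
    rw [hc, e, ← mul_smul, ← mul_smul (φ a k * m * k⁻¹)]
    simp
  obtain ⟨c, hc1, hc3⟩ := aut_exists_autFix_smul_eq hc2 (K := M) (fun a => hM a) hcop
    (Or.inr inferInstance) (k • g • x) (M.mul_mem (M.mul_mem (hM a k hk) hm) (M.inv_mem hk)) hfix
    (fun f => by
      rw [← e2]
      have := hfix ⟨a⁻¹ * f * a, by simpa using hE₂.conj_mem f f.2 a⁻¹⟩
      change (a⁻¹ * (f : A) * a) • k • g • x = _ at this
      change (f : A) • a • k • g • x = _
      conv_rhs => rw [← this]
      simp only [← mul_smul (α := A)]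
      congr 1
      group)
  have : c = 1 := congrArg Subtype.val (fix_eq_bot_iff.1 hb ⟨c, hc1.1⟩ fun a ha =>
    Subtype.ext (hc1.2 ⟨a, ha⟩))
  rw [e2, ← hc3, this, one_smul]

/-- Glauberman's lemma, action form. -/
theorem sg [Finite A] (hA : Group.IsNilpotent A) {G : Type u} [Group G] [Finite G]
    {φ : A →* MulAut G} (hs : Group.IsSolvable G) (h : ∀ g : G, (∀ a, φ a g = g) → g = 1)
    {X : Type w} [MulAction G X] [MulAction A X]
    (hc : ∀ (a : A) (g : G) (x : X), a • g • x = φ a g • a • x) (x : X)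
    (hx : ∀ a : A, ∃ g : G, a • x = g • x) : ∃ g : G, ∀ a : A, a • g • x = g • x :=
  sg_aux hA _ G φ rfl hs (fix_eq_bot_iff.2 fun g hg => h g fun a => hg a (mem_top a)) X hc x hx

/-- Glauberman's lemma, ambient form. -/
theorem sg_amb {Γ : Type u} [Group Γ] [Finite Γ] {K B : Subgroup Γ} (hB : Group.IsNilpotent B)
    (hBK : B ≤ normalizer (K : Set Γ)) (hs : Group.IsSolvable K)
    (h : K ⊓ centralizer (B : Set Γ) = ⊥) {X : Type w} [MulAction Γ X] (x : X)
    (hx : ∀ a ∈ B, ∃ k ∈ K, a • x = k • x) : ∃ k ∈ K, ∀ a ∈ B, a • k • x = k • x := by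
  let φ : B →* MulAut K := K.normalizerMonoidHom.comp (inclusion hBK)
  have hφ : ∀ (a : B) (k : K), (φ a k : Γ) = a * k * (a : Γ)⁻¹ := fun _ _ => rfl
  obtain ⟨k, hk⟩ := sg hB (φ := φ) hs (fun g hg => by
      have : (g : Γ) ∈ K ⊓ centralizer (B : Set Γ) := ⟨g.2, mem_centralizer_iff.2 fun a ha => by
        have := congrArg Subtype.val (hg ⟨a, ha⟩)
        rw [hφ] at this
        exact mul_inv_eq_iff_eq_mul.1 this⟩
      rw [h, mem_bot] at this
      exact Subtype.ext this) (X := X) (fun a g x => by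
      change (a : Γ) • (g : Γ) • x = (φ a g : Γ) • (a : Γ) • x
      rw [hφ, ← mul_smul, ← mul_smul]
      simp) x (fun a => by
      obtain ⟨k, hk, e⟩ := hx a a.2
      exact ⟨⟨k, hk⟩, e⟩)
  exact ⟨k, k.2, fun a ha => hk ⟨a, ha⟩⟩

end CfsgLib.FPD
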